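import Mathlib
import Cfsg.Agent.Lib.Helper6.A7.Defs
import Cfsg.Agent.Lib.Helper17.Simple
import Cfsg.Agent.Lib.Helper91.SSExtra

/-!
# S0984, package (F1): `|N(P₃)| = 36` forces `C(P₃) = P₃`
-/

set_option autoImplicit false

namespace Cfsg.Agent.Lib.Helper87.A7

universe u

open Cfsg.Agent.Lib.Helper6.A7

/-- If the Sylow `q`-subgroups have order `q ≠ 2` and are self-centralizing, then `q` does not
divide the order of the centralizer of an involution. -/
theorem not_dvd_card_centralizer_invol {G : Type u} [Group G] [Finite G] (q : ℕ) [Fact q.Prime]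
    (hq2 : q ≠ 2) (hQ : ∀ Q : Sylow q G, Nat.card (Q : Subgroup G) = q)
    (hc : ∀ Q : Sylow q G, Subgroup.centralizer ((Q : Subgroup G) : Set G) = (Q : Subgroup G))
    (r : G) (hr : orderOf r = 2) :
    ¬ q ∣ Nat.card (Subgroup.centralizer ({r} : Set G)) := by
  intro hdvd
  have hqp : q.Prime := Fact.out
  obtain ⟨y, hy⟩ := exists_prime_orderOf_dvd_card' (G := Subgroup.centralizer ({r} : Set G)) q hdvd
  have hy' : orderOf (y : G) = q := by rw [Subgroup.orderOf_coe]; exact hy
  have hYq : IsPGroup q (Subgroup.zpowers (y : G)) := by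
    apply IsPGroup.of_card (n := 1)
    rw [Nat.card_zpowers, hy', pow_one]
  obtain ⟨Q, hYQ⟩ := hYq.exists_le_sylow
  have hYeq : Subgroup.zpowers (y : G) = (Q : Subgroup G) := by
    apply Subgroup.eq_of_le_of_card_ge hYQ
    rw [hQ Q, Nat.card_zpowers, hy']
  have hzle : Subgroup.zpowers (y : G) ≤ Subgroup.centralizer ({r} : Set G) :=
    (Subgroup.zpowers_le).mpr y.2
  have hrC : r ∈ Subgroup.centralizer ((Q : Subgroup G) : Set G) := by
    rw [Subgroup.mem_centralizer_iff]
    intro h hh
    have h1 : h ∈ Subgroup.centralizer ({r} : Set G) := hzle (hYeq ▸ hh)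
    have h2 := Subgroup.mem_centralizer_iff.mp h1 r (Set.mem_singleton r)
    exact h2.symm
  rw [hc Q] at hrC
  have h3 : orderOf r ∣ Nat.card (Q : Subgroup G) := Subgroup.orderOf_dvd_natCard _ hrC
  rw [hr, hQ Q] at h3
  exact hq2 ((Nat.prime_dvd_prime_iff_eq Nat.prime_two hqp).mp h3).symm

theorem arith35 (d : ℕ) (hd : d ∣ 35) (h5 : ¬ 5 ∣ d) (h7 : ¬ 7 ∣ d) : d = 1 := by
  have hle : d ≤ 35 := Nat.le_of_dvd (by norm_num) hd
  interval_cases d <;> omega

/-- Package (F1). -/
theorem lemC3 : LemC3.{u} := by
  intro G _ _ _ hD hTC P hN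
  classical
  haveI : Fact (Nat.Prime 3) := ⟨by norm_num⟩
  haveI : Fact (Nat.Prime 5) := ⟨by norm_num⟩
  haveI : Fact (Nat.Prime 7) := ⟨by norm_num⟩
  have hcard := hD.card
  have hnp : ¬ (Nat.card G).Prime := by rw [hcard]; norm_num
  have hP9 : Nat.card (P : Subgroup G) = 9 := by
    have := Cfsg.Agent.Lib.Helper17.card_sylow_eq_of_card_eq 3 2 280
      (by rw [hcard]; norm_num) (by norm_num) P
    rw [this]; norm_num
  have h5 : ∀ Q : Sylow 5 G, Nat.card (Q : Subgroup G) = 5 := by
    intro Q
    have := Cfsg.Agent.Lib.Helper17.card_sylow_eq_of_card_eq 5 1 504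
      (by rw [hcard]; norm_num) (by norm_num) Q
    rw [this]; norm_num
  have h7 : ∀ Q : Sylow 7 G, Nat.card (Q : Subgroup G) = 7 := by
    intro Q
    have := Cfsg.Agent.Lib.Helper17.card_sylow_eq_of_card_eq 7 1 360
      (by rw [hcard]; norm_num) (by norm_num) Q
    rw [this]; norm_num
  -- `P` is abelian
  have hcommP : ∀ a b : (P : Subgroup G), a * b = b * a :=
    IsPGroup.commutative_of_card_eq_prime_sq (p := 3) (by rw [hP9]; norm_num)
  have hcomm : ∀ x ∈ (P : Subgroup G), ∀ y ∈ (P : Subgroup G), x * y = y * x := by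
    intro x hx y hy
    exact congrArg Subtype.val (hcommP ⟨x, hx⟩ ⟨y, hy⟩)
  have hPC : (P : Subgroup G) ≤ Subgroup.centralizer ((P : Subgroup G) : Set G) := by
    intro x hx
    rw [Subgroup.mem_centralizer_iff]
    intro y hy
    exact hcomm y hy x hx
  have hCN : Subgroup.centralizer ((P : Subgroup G) : Set G) ≤
      Subgroup.normalizer ((P : Subgroup G) : Set G) := Subgroup.centralizer_le_normalizer _
  have h9C : 9 ∣ Nat.card (Subgroup.centralizer ((P : Subgroup G) : Set G)) := by
    rw [← hP9]; exact Subgroup.card_dvd_of_le hPC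
  have hC36 : Nat.card (Subgroup.centralizer ((P : Subgroup G) : Set G)) ∣ 36 := by
    rw [← hN]; exact Subgroup.card_dvd_of_le hCN
  obtain ⟨k, hk⟩ := h9C
  have hk4 : k ∣ 4 := by
    rw [hk] at hC36
    exact Nat.dvd_of_mul_dvd_mul_left (by norm_num : 0 < 9) (by simpa using hC36)
  have hkle : k ≤ 4 := Nat.le_of_dvd (by norm_num) hk4
  have hk0 : 1 ≤ k := by
    rcases Nat.eq_zero_or_pos k with h0 | h0
    · rw [h0] at hk4
      simp at hk4
    · exact h0
  interval_cases k
  · -- `|C| = 9`
    exact (Subgroup.eq_of_le_of_card_ge hPC (by rw [hk, hP9])).symm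
  · -- `|C| = 18`
    exfalso
    have hC18 : Nat.card (Subgroup.centralizer ((P : Subgroup G) : Set G)) = 18 := by
      rw [hk]
    -- an involution of `C(P)`
    obtain ⟨r0, hr0⟩ := exists_prime_orderOf_dvd_card'
      (G := Subgroup.centralizer ((P : Subgroup G) : Set G)) 2 (by rw [hC18]; norm_num)
    have hr : orderOf (r0 : G) = 2 := by rw [Subgroup.orderOf_coe]; exact hr0
    obtain ⟨r, hrdef⟩ : ∃ r : G, r = (r0 : G) := ⟨_, rfl⟩
    rw [← hrdef] at hr
    have hrC : r ∈ Subgroup.centralizer ((P : Subgroup G) : Set G) := by rw [hrdef]; exact r0.2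
    have hrr : r * r = 1 := by
      have := pow_orderOf_eq_one r
      rwa [hr, pow_two] at this
    have hrP : r ∉ (P : Subgroup G) := by
      intro hmem
      have h3 : orderOf r ∣ Nat.card (P : Subgroup G) := Subgroup.orderOf_dvd_natCard _ hmem
      rw [hr, hP9] at h3
      norm_num at h3
    -- index two of `P` in `C(P)`
    have hidx : ((P : Subgroup G).subgroupOf
        (Subgroup.centralizer ((P : Subgroup G) : Set G))).index = 2 := by
      have h1 := Subgroup.card_mul_index ((P : Subgroup G).subgroupOf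
        (Subgroup.centralizer ((P : Subgroup G) : Set G)))
      have h2 : Nat.card ((P : Subgroup G).subgroupOf
          (Subgroup.centralizer ((P : Subgroup G) : Set G))) = 9 := by
        rw [← hP9]
        exact Nat.card_congr (Subgroup.subgroupOfEquivOfLe hPC).toEquiv
      rw [h2, hC18] at h1
      omega
    -- uniqueness of the involution of `C(P)`
    have huniq : ∀ t : G, t ∈ Subgroup.centralizer ((P : Subgroup G) : Set G) → t * t = 1 →
        t ∉ (P : Subgroup G) → t = r := by
      intro t htC htt htP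
      have hmem : (⟨r, hrC⟩ : Subgroup.centralizer ((P : Subgroup G) : Set G)) * ⟨t, htC⟩ ∈
          (P : Subgroup G).subgroupOf (Subgroup.centralizer ((P : Subgroup G) : Set G)) := by
        rw [Subgroup.mul_mem_iff_of_index_two hidx]
        constructor
        · intro h; exact absurd (Subgroup.mem_subgroupOf.mp h) hrP
        · intro h; exact absurd (Subgroup.mem_subgroupOf.mp h) htP
      have hy : r * t ∈ (P : Subgroup G) := Subgroup.mem_subgroupOf.mp hmem
      -- `r` commutes with `r * t`
      have hcom : (r * t) * r = r * (r * t) := Subgroup.mem_centralizer_iff.mp hrC _ hy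
      have htr : t * r = r * t := by
        have h1 : r * (t * r) = r * (r * t) := by rw [← mul_assoc]; exact hcom
        exact mul_left_cancel h1
      have hsq : (r * t) ^ 2 = 1 := by
        rw [pow_two]
        calc r * t * (r * t) = r * (t * r) * t := by group
          _ = r * (r * t) * t := by rw [htr]
          _ = (r * r) * (t * t) := by group
          _ = 1 := by rw [hrr, htt, one_mul]
      have h9 : (r * t) ^ 9 = 1 := by
        have h3 : orderOf (r * t) ∣ Nat.card (P : Subgroup G) := Subgroup.orderOf_dvd_natCard _ hy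
        rw [hP9] at h3
        exact orderOf_dvd_iff_pow_eq_one.mp h3
      have h1 : r * t = 1 := by
        have : (r * t) ^ 9 = ((r * t) ^ 2) ^ 4 * (r * t) := by
          rw [← pow_mul, ← pow_succ]
        rw [h9, hsq, one_pow, one_mul] at this
        exact this.symm
      have : t = r⁻¹ := (inv_eq_of_mul_eq_one_right h1).symm
      rw [this]
      exact inv_eq_of_mul_eq_one_left hrr
    -- `N(P) ≤ C(r)`
    have hNr : Subgroup.normalizer ((P : Subgroup G) : Set G) ≤
        Subgroup.centralizer ({r} : Set G) := by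
      intro n hn
      have hconjC : n * r * n⁻¹ ∈ Subgroup.centralizer ((P : Subgroup G) : Set G) := by
        rw [Subgroup.mem_centralizer_iff]
        intro h hh
        have h1 : n⁻¹ * h * n ∈ (P : Subgroup G) := by
          have := (Subgroup.mem_normalizer_iff.mp (Subgroup.inv_mem _ hn) h).mp hh
          simpa using this
        have h2 : (n⁻¹ * h * n) * r = r * (n⁻¹ * h * n) :=
          Subgroup.mem_centralizer_iff.mp hrC _ h1
        calc h * (n * r * n⁻¹) = n * ((n⁻¹ * h * n) * r) * n⁻¹ := by group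
          _ = n * (r * (n⁻¹ * h * n)) * n⁻¹ := by rw [h2]
          _ = n * r * n⁻¹ * h := by group
      have hsq : (n * r * n⁻¹) * (n * r * n⁻¹) = 1 := by
        calc (n * r * n⁻¹) * (n * r * n⁻¹) = n * (r * r) * n⁻¹ := by group
          _ = 1 := by rw [hrr]; group
      have hnotP : n * r * n⁻¹ ∉ (P : Subgroup G) := by
        intro hmem
        apply hrP
        have := (Subgroup.mem_normalizer_iff.mp hn r).mpr hmem
        exact this
      have heq := huniq _ hconjC hsq hnotP
      rw [Subgroup.mem_centralizer_iff]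
      intro h hh
      rw [Set.mem_singleton_iff] at hh
      rw [hh]
      have : n * r = r * n := by
        have h1 : n * r * n⁻¹ * n = r * n := by rw [heq]
        simpa using h1
      exact this.symm
    -- `|C(r)| = 72`
    have h8 : 8 ∣ Nat.card (Subgroup.centralizer ({r} : Set G)) := hTC r hr
    have h36 : 36 ∣ Nat.card (Subgroup.centralizer ({r} : Set G)) := by
      rw [← hN]; exact Subgroup.card_dvd_of_le hNr
    have h72 : 72 ∣ Nat.card (Subgroup.centralizer ({r} : Set G)) := by
      have h9 : 9 ∣ Nat.card (Subgroup.centralizer ({r} : Set G)) :=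
        dvd_trans (by norm_num) h36
      have := Nat.Coprime.mul_dvd_of_dvd_of_dvd (by norm_num : Nat.Coprime 8 9) h8 h9
      simpa using this
    have hdvd : Nat.card (Subgroup.centralizer ({r} : Set G)) ∣ 2520 := by
      rw [← hcard]; exact Subgroup.card_subgroup_dvd_card _
    have hn5 := not_dvd_card_centralizer_invol 5 (by norm_num) h5 hD.c5 r hr
    have hn7 := not_dvd_card_centralizer_invol 7 (by norm_num) h7 hD.c7 r hr
    have hH72 : Nat.card (Subgroup.centralizer ({r} : Set G)) = 72 := by
      obtain ⟨d, hd⟩ := h72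
      rw [hd] at hdvd hn5 hn7 ⊢
      have hd35 : d ∣ 35 := by
        have : 72 * d ∣ 72 * 35 := by simpa using hdvd
        exact Nat.dvd_of_mul_dvd_mul_left (by norm_num) this
      have hd5 : ¬ 5 ∣ d := fun h => hn5 (Dvd.dvd.mul_left h 72)
      have hd7 : ¬ 7 ∣ d := fun h => hn7 (Dvd.dvd.mul_left h 72)
      rw [arith35 d hd35 hd5 hd7]
    -- Sylow count in `C(r)`
    have hPH : (P : Subgroup G) ≤ Subgroup.centralizer ({r} : Set G) :=
      le_trans Subgroup.le_normalizer hNr
    obtain ⟨hmod, hmul⟩ := Cfsg.Agent.Lib.Helper91.SS.card_sylow_subgroup 3 P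
      (Subgroup.centralizer ({r} : Set G)) hPH
    rw [inf_eq_left.mpr hNr, hN, hH72] at hmul
    have : Nat.card (Sylow 3 (Subgroup.centralizer ({r} : Set G))) = 2 := by omega
    rw [this] at hmod
    norm_num at hmod
  · -- `|C| = 27`: impossible
    exfalso
    norm_num at hk4
  · -- `|C| = 36`
    exfalso
    have hCeq : Subgroup.centralizer ((P : Subgroup G) : Set G) =
        Subgroup.normalizer ((P : Subgroup G) : Set G) :=
      Subgroup.eq_of_le_of_card_ge hCN (by rw [hk, hN])
    exact Cfsg.Agent.Lib.Helper17.not_normalizer_le_centralizer hnp 3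
      (by rw [hcard]; norm_num) P (le_of_eq hCeq.symm)

end Cfsg.Agent.Lib.Helper87.A7
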